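import Cfsg.Agent.R2.T1.N6B.Grp

/-!
# The elements of order 4 of `A₆` (helper22)
-/

set_option autoImplicit false
set_option maxRecDepth 100000
set_option linter.unusedSectionVars false

namespace Cfsg.Agent.R2.T1.N6B

open Cfsg Cfsg.Lie Module Equiv
open Cfsg.Agent.H943.E7V.Block (D1 rho)
open Cfsg.Agent.H952.F4 (ev es MaxAlt)
open Cfsg.Agent.R2.T1

universe u

theorem type_four {a : Perm (Fin 6)} (hs : Perm.sign a = 1) (h4 : a ^ 4 = 1) (h2 : a ^ 2 ≠ 1) : a.cycleType = {4, 2} := by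
  have hsum : a.cycleType.sum ≤ 6 := by
    rw [Perm.sum_cycleType]
    exact (Finset.card_le_univ _).trans (by simp)
  have hdvd : ∀ n ∈ a.cycleType, n ∣ 4 := fun n hn => (Perm.dvd_of_mem_cycleType hn).trans (orderOf_dvd_of_pow_eq_one h4)
  have h4m : 4 ∈ a.cycleType := by
    by_contra hno
    apply h2
    rw [← orderOf_dvd_iff_pow_eq_one, ← Perm.lcm_cycleType, Multiset.lcm_dvd]
    intro n hn
    have h5 := Nat.le_of_dvd (by norm_num) (hdvd n hn)
    have h6 := hdvd n hn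
    interval_cases n
    · exact absurd h6 (by decide)
    · exact one_dvd 2
    · exact dvd_rfl
    · exact absurd h6 (by decide)
    · exact absurd hn hno
  obtain ⟨m, hm⟩ := Multiset.exists_cons_of_mem h4m
  have hsg := Perm.sign_of_cycleType a
  rw [hs, hm] at hsg
  rw [hm, Multiset.sum_cons] at hsum
  have hge : ∀ n ∈ m, 2 ≤ n := fun n hn => Perm.two_le_of_mem_cycleType (σ := a) (by rw [hm]; exact Multiset.mem_cons_of_mem hn)
  rcases Multiset.empty_or_exists_mem m with rfl | ⟨b, hb⟩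
  · exact absurd hsg (by decide)
  · obtain ⟨m', rfl⟩ := Multiset.exists_cons_of_mem hb
    rw [Multiset.sum_cons] at hsum
    have h5 := hge b hb
    rcases Multiset.empty_or_exists_mem m' with rfl | ⟨c, hc⟩
    · rw [hm]
      have h6 : b = 2 := by
        rw [Multiset.sum_zero] at hsum
        omega
      rw [h6]
      rfl
    · obtain ⟨m'', rfl⟩ := Multiset.exists_cons_of_mem hc
      rw [Multiset.sum_cons] at hsum
      have h6 := hge c (Multiset.mem_cons_of_mem hc)
      omega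

theorem conj_four {a b : A6} (ha : a ^ 4 = 1) (ha2 : a ^ 2 ≠ 1) (hb : b ^ 4 = 1) (hb2 : b ^ 2 ≠ 1) :
    ∃ c : A6, c * a * c⁻¹ = b := by
  have key : ∀ {a : A6}, a ^ 4 = 1 → a ^ 2 ≠ 1 → (a : Perm (Fin 6)).cycleType = {4, 2} := by
    intro a h4 h2
    refine type_four (Perm.mem_alternatingGroup.1 a.2) ?_ ?_
    · have := congrArg (fun x : A6 => (x : Perm (Fin 6))) h4
      simpa using this
    · intro h0
      apply h2
      apply Subtype.ext
      simpa using h0
  have h1 := key ha ha2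
  have h2 := key hb hb2
  obtain ⟨τ, hτ⟩ := isConj_iff.1 (Perm.isConj_iff_cycleType_eq.2 (h1.trans h2.symm))
  rcases Int.units_eq_one_or (Perm.sign τ) with hs | hs
  · exact ⟨⟨τ, Perm.mem_alternatingGroup.2 hs⟩, Subtype.ext hτ⟩
  · -- the four-cycle of `a`
    have h4m : 4 ∈ (a : Perm (Fin 6)).cycleType := by rw [h1]; decide
    obtain ⟨c, d, hcd, hdis, hcy, hcard⟩ := Perm.mem_cycleType_iff.1 h4m
    have hsc : Perm.sign c = -1 := by
      rw [hcy.sign, hcard]
      decide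
    have hcomm : c * a * c⁻¹ = a := by
      rw [hcd, ← mul_assoc, mul_assoc (c * c), ← (hdis.commute.inv_left).eq]
      group
    refine ⟨⟨τ * c, ?_⟩, Subtype.ext ?_⟩
    · rw [Perm.mem_alternatingGroup, Perm.sign_mul, hs, hsc]
      decide
    · show τ * c * (a : Perm (Fin 6)) * (τ * c)⁻¹ = b
      rw [← hτ, mul_inv_rev]
      calc τ * c * (a : Perm (Fin 6)) * (c⁻¹ * τ⁻¹) = τ * (c * a * c⁻¹) * τ⁻¹ := by simp only [mul_assoc]
        _ = τ * a * τ⁻¹ := by rw [hcomm]

section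
variable {F : Type u} [Field F] {H : Subgroup ↥(chevE7.group F)} {φ : A6 →* ↥(chevE7.group F)}

/-- **adjustment** -/
theorem exists_adj [Finite F] (h2 : (2 : F) ≠ 0) (hM : MaxAlt H 6 φ) {x : Gh F} (hx : V F (x ^ 4) = -1)
    (hxm : ad F x ∈ φ.range) {h : Gh F} (hh : ad F h ∈ H) :
    ∃ y : Gh F, ad F y ∈ φ.range ∧ y * h * x * (y * h)⁻¹ = x := by
  obtain ⟨a, ha⟩ := hxm
  obtain ⟨b, hb⟩ := hM.norm _ hh _ ⟨a, rfl⟩
  have hx4 : ad F (x ^ 4) = 1 := ad_eq_one_iff.2 (Or.inr hx)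
  have h11 : (1 : Module.End F (D1 → F)) ≠ -1 := by
    intro h0
    have h7 := congrArg (fun T : Module.End F (D1 → F) => T (fun _ => 1)) h0
    have h8 := congrFun h7 topv
    change (1 : F) = -1 at h8
    apply h2
    linear_combination h8
  have hx2 : ad F (x ^ 2) ≠ 1 := by
    intro h0
    have h1 := ker_sq h0
    rw [← pow_add] at h1
    rw [h1, map_one] at hx
    exact h11 hx
  have ha4 : a ^ 4 = 1 := hM.inj (by rw [map_pow, ha, ← map_pow, hx4, map_one])
  have ha2 : a ^ 2 ≠ 1 := by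
    intro h0
    apply hx2
    rw [map_pow, ← ha, ← map_pow, h0, map_one]
  have hb4 : b ^ 4 = 1 := hM.inj (by rw [map_pow, hb, conj_pow, ← map_pow, ha4, map_one, mul_one, mul_inv_cancel])
  have hb2 : b ^ 2 ≠ 1 := by
    intro h0
    apply ha2
    apply hM.inj
    have h1 : φ b ^ 2 = 1 := by rw [← map_pow, h0, map_one]
    rw [hb, conj_pow, ← map_pow] at h1
    rw [map_one]
    have h3 := congrArg (fun t => (ad F h)⁻¹ * t * ad F h) h1
    simp only [mul_one, inv_mul_cancel] at h3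
    rw [← h3]
    group
  obtain ⟨c, hc⟩ := conj_four hb4 hb2 ha4 ha2
  obtain ⟨y, hy⟩ := ad_surjective (φ c)
  refine ⟨y, ⟨c, hy.symm⟩, ?_⟩
  have h3 : ad F (y * h * x * (y * h)⁻¹) = ad F x := by
    rw [← ha, ← hc, map_mul φ, map_mul φ, map_inv φ, hb, ← hy, ha]
    simp only [map_mul, map_inv]
    group
  rcases ad_eq_iff.1 h3 with h4 | h4
  · exact h4
  · exact (no_neg h2 hx h4).elim

end

end Cfsg.Agent.R2.T1.N6B
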