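import Cfsg.Agent.R2.T1.N6B.Mod

/-!
# The modules `Hom(V_3, V_8)`, `Hom(V_1, V_8)` (helper22)
-/

set_option autoImplicit false
set_option linter.unusedSectionVars false
set_option linter.unusedSimpArgs false

namespace Cfsg.Agent.R2.T1.N6B

open Matrix (SpecialLinearGroup)
open Cfsg.Agent.H943.SL2Rel Cfsg.Agent.H943.SL2Mod Cfsg.Agent.H943.RepAdd Cfsg.Agent.R2.H28.SL2
open scoped TensorProduct

universe u v w

variable {k : Type u} [Field k] [DecidableEq k] {F : Type} [Field F] [Fintype F] [DecidableEq F] (ι : F →+* k)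
variable [CharP k 3] [CharP F 3] [IsAlgClosed k]

theorem no_eight_tab (hF : Fintype.card F = 3 ^ 2) {c d : ℕ}
    (hc : (c = 3 ∧ (d = 1 ∨ d = 3 ∨ d = 7)) ∨ (c = 1 ∧ (d = 1 ∨ d = 3 ∨ d = 5)))
    {V : Type u} [AddCommGroup V] [Module k V] [FiniteDimensional k V]
    {ρ : Representation k (SpecialLinearGroup (Fin 2) F) V}
    (h : ∀ z, Zs (3 ^ 2) z → cs k (cf (Sy.{u, u, 0} ι 3) ρ) z = chB k c z * chB k d z) {e : ℕ} (he : e = 8) :
    e ∉ cf (Sy.{u, u, 0} ι 3) ρ := by
  rw [he]
  have key : ∀ s : Multiset ℕ, (∀ b ∈ s, b < 3 ^ 2) → 8 ∉ s →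
      (∀ z, Zs (3 ^ 2) z → chB k c z * chB k d z = cs k s z) → 8 ∉ cf (Sy.{u, u, 0} ι 3) ρ := by
    intro s hs h8 hz
    rw [cf_of_cs ι 3 hF hs fun z hz' => (h z hz').trans (hz z hz')]
    exact h8
  rcases hc with ⟨rfl, rfl | rfl | rfl⟩ | ⟨rfl, rfl | rfl | rfl⟩
  · refine key {4} (by simp) (by simp) fun z hz => ?_
    obtain ⟨a, b, h1, h3, h0, h2, h4, h5, h6, h7, h8, e1, e2⟩ := chs k hz
    simp only [Multiset.insert_eq_cons, cs_cons, cs_singleton, h0, h1, h2, h3, h4, h5, h6, h7, h8]
    linear_combination (0 : ℂ) * e1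
  · refine key {6, 0} (by simp) (by simp) fun z hz => ?_
    obtain ⟨a, b, h1, h3, h0, h2, h4, h5, h6, h7, h8, e1, e2⟩ := chs k hz
    simp only [Multiset.insert_eq_cons, cs_cons, cs_singleton, h0, h1, h2, h3, h4, h5, h6, h7, h8]
    linear_combination (0 : ℂ) * e1
  · refine key {2, 0, 4, 4} (by simp) (by simp) fun z hz => ?_
    obtain ⟨a, b, h1, h3, h0, h2, h4, h5, h6, h7, h8, e1, e2⟩ := chs k hz
    simp only [Multiset.insert_eq_cons, cs_cons, cs_singleton, h0, h1, h2, h3, h4, h5, h6, h7, h8]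
    linear_combination (-a) * e2
  · refine key {2, 0} (by simp) (by simp) fun z hz => ?_
    obtain ⟨a, b, h1, h3, h0, h2, h4, h5, h6, h7, h8, e1, e2⟩ := chs k hz
    simp only [Multiset.insert_eq_cons, cs_cons, cs_singleton, h0, h1, h2, h3, h4, h5, h6, h7, h8]
    linear_combination (0 : ℂ) * e1
  · refine key {4} (by simp) (by simp) fun z hz => ?_
    obtain ⟨a, b, h1, h3, h0, h2, h4, h5, h6, h7, h8, e1, e2⟩ := chs k hz
    simp only [Multiset.insert_eq_cons, cs_cons, cs_singleton, h0, h1, h2, h3, h4, h5, h6, h7, h8]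
  · refine key {6, 0, 4, 4} (by simp) (by simp) fun z hz => ?_
    obtain ⟨a, b, h1, h3, h0, h2, h4, h5, h6, h7, h8, e1, e2⟩ := chs k hz
    simp only [Multiset.insert_eq_cons, cs_cons, cs_singleton, h0, h1, h2, h3, h4, h5, h6, h7, h8]
    linear_combination (-b) * e1

/-- **the covers** -/
theorem exists_cov (hF : Fintype.card F = 3 ^ 2) {c b : ℕ} {s : Multiset ℕ}
    (hc : (c = 3 ∧ b = 5 ∧ s = {5, 5, 1, 1, 3}) ∨ (c = 1 ∧ b = 7 ∧ s = {7, 7, 3, 3, 1})) :
    ∃ (P : Type u) (_ : AddCommGroup P) (_ : Module k P) (_ : FiniteDimensional k P)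
      (π : Representation k (SpecialLinearGroup (Fin 2) F) P), Cov k F b s π ι := by
  have h9 : Fintype.card F = 9 := by rw [hF]; norm_num
  have hcb : c ≤ Fintype.card F - 1 := by omega
  have hc3 : Odd c := by
    rcases hc with ⟨rfl, -⟩ | ⟨rfl, -⟩ <;> decide
  have hA := isV_RB ι hcb
  have hE := isV_RB ι (le_refl (Fintype.card F - 1))
  have hfA := hA.finite
  have hfE := hE.finite
  have he : Fintype.card F - 1 = 8 := by omega
  have hev : Even (Fintype.card F - 1) := by rw [he]; decide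
  have hneg : ∀ x, Representation.linHom (RB ι 3 hcb) (RB ι 3 (le_refl (Fintype.card F - 1))) (h (-1)) x = -x := by
    intro φ
    ext1 x
    rw [Representation.linHom_apply, LinearMap.comp_apply, LinearMap.comp_apply]
    have h1 : (h (-1) : SpecialLinearGroup (Fin 2) F)⁻¹ = h (-1) := by
      rw [← h_inv, inv_neg, inv_one]
    rw [h1, IsV.neg_one ι hE, IsV.neg_one ι hA, hev.neg_one_pow, hc3.neg_one_pow, neg_one_smul, map_neg, one_smul]
    rfl
  have hlt : ∀ {V : Type u} [AddCommGroup V] [Module k V] {ρ : Representation k (SpecialLinearGroup (Fin 2) F) V} {d : ℕ},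
      IsV ι 3 ρ d → (∀ x, ρ (h (-1)) x = -x) → d ≠ b →
      ((c = 3 ∧ (d = 1 ∨ d = 3 ∨ d = 7)) ∨ (c = 1 ∧ (d = 1 ∨ d = 3 ∨ d = 5))) := by
    intro V _ _ ρ d hd hm hdb
    have h1 := IsV.odd ι hd hm
    have h2 := hd.choose
    obtain ⟨r, rfl⟩ := h1
    rcases hc with ⟨rfl, rfl, -⟩ | ⟨rfl, rfl, -⟩
    · left
      exact ⟨rfl, by omega⟩
    · right
      exact ⟨rfl, by omega⟩
  refine ⟨Vb ι c →ₗ[k] Vb ι (Fintype.card F - 1), inferInstance, inferInstance, inferInstance,
    Representation.linHom (RB ι 3 hcb) (RB ι 3 (le_refl (Fintype.card F - 1))),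
    ⟨?_, ?_, hneg, ?_, ?_⟩⟩
  · intro _
    obtain ⟨θ, hθ⟩ := hig_st ι 3 hE
    exact ⟨_, hθ.hom (RB ι 3 hcb)⟩
  · refine cf_of_cs ι 3 hF ?_ fun z hz => ?_
    · rcases hc with ⟨-, -, rfl⟩ | ⟨-, -, rfl⟩ <;> simp
    · rw [cs_hom ι 3 hF _ _ hz, cf_irr (Sy.{u, u, 0} ι 3) hA, cf_irr (Sy.{u, u, 0} ι 3) hE, cs_singleton, cs_singleton, he]
      obtain ⟨a, b', h1, h3, h0, h2, h4, h5, h6, h7, h8, e1, e2⟩ := chs k hz
      rcases hc with ⟨rfl, -, rfl⟩ | ⟨rfl, -, rfl⟩
      · simp only [Multiset.insert_eq_cons, cs_cons, cs_singleton, h0, h1, h2, h3, h4, h5, h6, h7, h8]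
        linear_combination (-(a ^ 2 - 1)) * e2 - e1
      · simp only [Multiset.insert_eq_cons, cs_cons, cs_singleton, h0, h1, h2, h3, h4, h5, h6, h7, h8]
        linear_combination (-(b' ^ 2 - 1)) * e1 - e2
  · intro d hd
    by_contra hdb
    obtain ⟨X, hX, hXd⟩ := hd
    have h1 := hlt hXd (fun x => Subtype.ext (hneg x)) hdb
    have hfX := hXd.finite
    have h2 := mem_tens ι hE (α := subRep _ X hX) (β := RB ι 3 hcb) X.subtype (fun g x y => by
      show (Representation.linHom (RB ι 3 hcb) (RB ι 3 (le_refl (Fintype.card F - 1))) g x.1) (RB ι 3 hcb g y) = _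
      rw [Representation.linHom_apply, LinearMap.comp_apply, LinearMap.comp_apply, rep_inv_apply]
      rfl) (fun h0 => by
      have := hXd.irr.1
      obtain ⟨x, hx⟩ := exists_ne (0 : X)
      exact hx (Subtype.ext (LinearMap.congr_fun h0 x)))
    refine no_eight_tab ι hF h1 (fun z hz => ?_) he h2
    rw [cs_tens ι 3 hF _ _ hz, cf_irr (Sy.{u, u, 0} ι 3) hA, cf_irr (Sy.{u, u, 0} ι 3) hXd, cs_singleton, cs_singleton,
      mul_comm]
  · intro d hdb B _ _ σ hσ f hf
    by_contra hf0
    have hfB := hσ.finite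
    have hs : LinearMap.range f = ⊤ := by
      rcases hσ.irr.2 (LinearMap.range f) (by
        rintro g _ ⟨x, rfl⟩
        exact ⟨_, hf g x⟩) with h1 | h1
      · exact absurd (LinearMap.range_eq_bot.1 h1) hf0
      · exact h1
    have h1 := hlt hσ (fun x => by
      obtain ⟨y, rfl⟩ := LinearMap.range_eq_top.1 hs x
      rw [← hf, hneg]
      exact f.map_neg y) hdb
    obtain ⟨α', β, D⟩ := exists_dul (RB ι 3 hcb)
    have hA' : IsV ι 3 α' c := IsV.dual ι 3 hA D
    -- the map
    let L : Vb ι (Fintype.card F - 1) →ₗ[k] (Vb ι c →ₗ[k] B) :=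
      LinearMap.mk₂ k (fun v y => f ((β.flip y).smulRight v))
        (fun v v' y => by
          rw [← map_add]
          congr 1
          ext1 x
          exact smul_add _ _ _)
        (fun a v y => by
          rw [← map_smul]
          congr 1
          ext1 x
          exact smul_comm _ _ _)
        (fun v y y' => by
          rw [← map_add]
          congr 1
          ext1 x
          show (β.flip (y + y') x) • v = β.flip y x • v + β.flip y' x • v
          rw [map_add, LinearMap.add_apply, add_smul])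
        (fun a v y => by
          rw [← map_smul]
          congr 1
          ext1 x
          show (β.flip (a • y) x) • v = a • (β.flip y x • v)
          rw [map_smul, LinearMap.smul_apply, smul_assoc])
    have hL : ∀ v y, L v y = f ((β.flip y).smulRight v) := fun _ _ => rfl
    have hL0 : L ≠ 0 := by
      intro h0
      apply hf0
      refine LinearMap.ext fun φ => ?_
      let e := Module.finBasis k (Vb ι c)
      have h2 : φ = ∑ i, (e.coord i).smulRight (φ (e i)) := by
        refine e.ext fun j => ?_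
        rw [LinearMap.sum_apply, Finset.sum_eq_single j]
        · rw [LinearMap.smulRight_apply, Module.Basis.coord_apply, Module.Basis.repr_self, Finsupp.single_eq_same, one_smul]
        · intro i _ hij
          rw [LinearMap.smulRight_apply, Module.Basis.coord_apply, Module.Basis.repr_self, Finsupp.single_eq_of_ne, zero_smul]
          exact hij
        · intro h3
          exact absurd (Finset.mem_univ _) h3
      rw [h2, map_sum, LinearMap.zero_apply]
      refine Finset.sum_eq_zero fun i _ => ?_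
      obtain ⟨y, hy⟩ := D.surj (e.coord i)
      have h3 : β.flip y = e.coord i := LinearMap.ext hy
      rw [← h3, ← hL, h0]
      rfl
    have hLe : ∀ g v, L (RB ι 3 (le_refl (Fintype.card F - 1)) g v) = Representation.linHom α' σ g (L v) := by
      intro g v
      refine LinearMap.ext fun y => ?_
      rw [Representation.linHom_apply, LinearMap.comp_apply, LinearMap.comp_apply, hL, hL, ← hf]
      congr 1
      refine LinearMap.ext fun x => ?_
      rw [Representation.linHom_apply, LinearMap.comp_apply, LinearMap.comp_apply]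
      rw [LinearMap.smulRight_apply, LinearMap.smulRight_apply, map_smul, LinearMap.flip_apply, LinearMap.flip_apply, D.inv]
    have h2 : Fintype.card F - 1 ∈ cf (Sy.{u, u, 0} ι 3) (Representation.linHom α' σ) :=
      InSoc.mem_cf ι 3 (inSoc_of_hom ι 3 hE L hLe hL0)
    refine no_eight_tab ι hF h1 (fun z hz => ?_) he h2
    rw [cs_hom ι 3 hF _ _ hz, cf_irr (Sy.{u, u, 0} ι 3) hA', cf_irr (Sy.{u, u, 0} ι 3) hσ, cs_singleton, cs_singleton]

end Cfsg.Agent.R2.T1.N6B
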