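import Mathlib
import Cfsg.Agent.R2.T1.Five.Eight

/-!
# S5929, box B: elements of order 8 and 16 (helper25)

* `odd_eight` : if `x ^ 4 = -1` on the module of degree 56, the multiplicity of an eigenvalue `ζ`, `ζ ^ 4 = -1`, is odd;
* `no_sixteen` : if `|F| ≡ 9` modulo 16, no element `k` has `k ^ 8 = -1` on the module of degree 56.
-/

set_option autoImplicit false
set_option maxRecDepth 100000

namespace Cfsg.Agent.R2.T1.N6B

open Cfsg Cfsg.Lie Module
open Cfsg.Agent.H943.E7V.Block (D1 rho)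
open Cfsg.Agent.H952.F4 (ev es)
open Cfsg.Agent.R2.T1 Cfsg.Agent.R2.T1.Five

universe u v

/-- the property of the rows of order 8 -/
def P8 (m : ℕ → ℕ) : Bool := !(m 0 == 0 && m 2 == 0 && m 4 == 0) || (m 1 % 2 == 1)

theorem chkP8 : chkP 8 P8 = true := by decide +kernel

/-- the property of the rows of order 16 -/
def P16 (m : ℕ → ℕ) : Bool := !(m 0 == 0 && m 2 == 0 && m 4 == 0 && m 6 == 0 && m 8 == 0) || !(m 1 == m 9)

theorem chkP16 : chkP 16 P16 = true := by decide +kernel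

section
variable {F : Type u} [Field F] [Finite F]

omit [Finite F] in
theorem two_pow_ne (h2 : (2 : F) ≠ 0) (n : ℕ) : (((2 ^ n : ℕ) : ℕ) : F) ≠ 0 := by
  rw [Nat.cast_pow, Nat.cast_ofNat]
  exact pow_ne_zero n h2

omit [Finite F] in
theorem ne_neg (h2 : (2 : F) ≠ 0) (h : V F (1 : Gh F) = -1) : False := by
  have h7 := congrArg (fun T : Module.End F (D1 → F) => T (fun _ => 1)) h
  have h8 := congrFun h7 topv
  simp only [map_one] at h8
  change (1 : F) = -1 at h8
  apply h2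
  linear_combination h8

omit [Finite F] in
/-- `-1` is preserved by an extension of the field -/
theorem emb_neg {K : Type v} [Field K] (f : F →+* K) (h2 : (2 : F) ≠ 0) {z : Gh F} (hz : V F z = -1) : V K (emb f z) = -1 := by
  have h3 : ad F z = 1 := ad_eq_one_iff.2 (Or.inr hz)
  have h4 : ad K (emb f z) = 1 := (ad_emb_eq_one_iff f _).2 h3
  rcases ad_eq_one_iff.1 h4 with h5 | h5
  · exfalso
    have h6 : emb f z = 1 := faithful h5
    rw [emb_injective f (h6.trans (map_one (emb f)).symm)] at hz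
    exact ne_neg h2 hz
  · exact h5

omit [Finite F] in
/-- an eigenvalue `μ` of `k`, `k ^ m = -1`, has `μ ^ m = -1` -/
theorem ev_zero_of (h2 : (2 : F) ≠ 0) {k : Gh F} {m : ℕ} (hk : V F (k ^ m) = -1) {μ : F} (hμ : μ ^ m = 1) :
    ev (V F k) μ = 0 := by
  rw [ev, Submodule.finrank_eq_zero, eq_bot_iff]
  intro v hv
  rw [Module.End.mem_eigenspace_iff] at hv
  have h3 : ∀ n : ℕ, V F (k ^ n) v = (μ ^ n) • v := by
    intro n
    induction n with
    | zero => rw [pow_zero, pow_zero, map_one, one_smul]; rfl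
    | succ n ih => rw [pow_succ', map_mul, Module.End.mul_apply, ih, map_smul, hv, smul_smul, pow_succ]
  have h4 := h3 m
  rw [hk, hμ, one_smul] at h4
  have h6 : -v = v := h4
  have h7 : (2 : F) • v = 0 := by
    rw [two_smul]
    nth_rewrite 1 [← h6]
    exact neg_add_cancel v
  exact (Submodule.mem_bot _).2 ((smul_eq_zero.1 h7).resolve_left h2)

/-- the rows, for an element of the finite group -/
theorem row {N : ℕ} {P : (ℕ → ℕ) → Bool} (hchk : chkP N P = true) (hN : 0 < N) (hNF : ((N : ℕ) : F) ≠ 0)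
    {ζ : AlgebraicClosure F} (hζ : IsPrimitiveRoot ζ N) {x : Gh F} (hx : x ^ N = 1) :
    ∃ m : ℕ → ℕ, P m = true ∧ ∀ k < N, ev (V (AlgebraicClosure F) (emb (algebraMap F (AlgebraicClosure F)) x)) (ζ ^ k) = m k := by
  obtain ⟨p, hpp, hp, hcop⟩ := exists_char hNF
  have hζ0 : ζ ≠ 0 := hζ.ne_zero hN.ne'
  have hζu : IsPrimitiveRoot (Units.mk0 ζ hζ0) N := IsPrimitiveRoot.coe_units_iff.1 hζ
  exact exists_row hchk hN hζu (frame p hN.ne' hcop hx)

omit [Finite F] in
theorem sq_one {k : Gh F} {m : ℕ} (hk : V F (k ^ m) = -1) : k ^ (2 * m) = 1 := by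
  apply V_injective
  have h1 : k ^ (2 * m) = k ^ m * k ^ m := by rw [← pow_add, two_mul]
  rw [h1, map_mul, hk, map_one]
  refine LinearMap.ext fun v => ?_
  show - - v = v
  exact _root_.neg_neg v

/-- **the multiplicity of an eigenvalue of order 8 is odd** -/
theorem odd_eight (h2 : (2 : F) ≠ 0) {x : Gh F} (hx : V F (x ^ 4) = -1) {ζ : F} (hζ : ζ ^ 4 = -1) :
    Odd (ev (V F x) ζ) := by
  set f := algebraMap F (AlgebraicClosure F) with hf
  have h2K : (2 : AlgebraicClosure F) ≠ 0 := by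
    have h := (map_ne_zero f).2 h2
    rwa [map_ofNat] at h
  have h8 : x ^ 8 = 1 := sq_one hx
  have hζK : (f ζ) ^ 4 = -1 := by rw [← map_pow, hζ, map_neg, map_one]
  have hne : (-1 : AlgebraicClosure F) ≠ 1 := by
    intro h
    apply h2K
    linear_combination -h
  have hpr : IsPrimitiveRoot (f ζ) 8 := by
    have h1 : orderOf (f ζ) = 2 ^ (2 + 1) := orderOf_eq_prime_pow (p := 2)
      (by show ¬ (f ζ) ^ 4 = 1; rw [hζK]; exact hne)
      (by
        show (f ζ) ^ 8 = 1
        rw [show 8 = 4 * 2 by norm_num, pow_mul, hζK]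
        norm_num)
    have h3 := IsPrimitiveRoot.orderOf (f ζ)
    rw [h1] at h3
    exact h3
  obtain ⟨m, hP, h1⟩ := row chkP8 (by norm_num) (two_pow_ne h2 3) hpr h8
  have hk := emb_neg f h2 hx
  rw [map_pow] at hk
  have e0 := h1 0 (by norm_num)
  have e2 := h1 2 (by norm_num)
  have e4 := h1 4 (by norm_num)
  have e1 := h1 1 (by norm_num)
  rw [ev_zero_of h2K hk (by rw [pow_zero, one_pow])] at e0
  rw [ev_zero_of h2K hk (by rw [← pow_mul, show 4 * 4 = 8 * 2 by norm_num, pow_mul, hpr.pow_eq_one, one_pow])] at e4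
  rw [ev_zero_of h2K hk (by rw [← pow_mul, show 2 * 4 = 8 by norm_num, hpr.pow_eq_one])] at e2
  rw [pow_one, ev_V] at e1
  unfold P8 at hP
  rw [← e0, ← e2, ← e4, ← e1] at hP
  simp only [beq_self_eq_true, Bool.and_self, Bool.not_true, Bool.false_or, beq_iff_eq] at hP
  exact Nat.odd_iff.2 hP

/-- **elements `k` with `k ^ 8 = -1` need `|F| ≢ 9` modulo 16** -/
theorem no_sixteen (hq : Nat.card F % 16 = 9) {k : Gh F} (hk : V F (k ^ 8) = -1) : False := by
  have h2 : (2 : F) ≠ 0 := by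
    intro h2
    have := Fintype.ofFinite F
    have h1 : ((Nat.card F : ℕ) : F) = 0 := by
      rw [Nat.card_eq_fintype_card]
      exact Nat.cast_card_eq_zero F
    obtain ⟨m, hm⟩ : ∃ m, Nat.card F = 2 * m + 1 := ⟨Nat.card F / 2, by omega⟩
    rw [hm, Nat.cast_add, Nat.cast_mul, Nat.cast_ofNat, h2, zero_mul, zero_add, Nat.cast_one] at h1
    exact one_ne_zero h1
  set f := algebraMap F (AlgebraicClosure F) with hf
  have h2K : (2 : AlgebraicClosure F) ≠ 0 := by
    have h := (map_ne_zero f).2 h2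
    rwa [map_ofNat] at h
  have h16 : k ^ 16 = 1 := sq_one hk
  have : NeZero ((16 : ℕ) : AlgebraicClosure F) := ⟨by
    rw [show (16 : ℕ) = 2 ^ 4 by norm_num, Nat.cast_pow, Nat.cast_ofNat]
    exact pow_ne_zero 4 h2K⟩
  obtain ⟨ζ, hζ⟩ : ∃ ζ : AlgebraicClosure F, IsPrimitiveRoot ζ 16 :=
    HasEnoughRootsOfUnity.exists_primitiveRoot (AlgebraicClosure F) 16
  obtain ⟨m, hP, h1⟩ := row chkP16 (by norm_num) (two_pow_ne h2 4) hζ h16
  have hk' := emb_neg f h2 hk
  rw [map_pow] at hk'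
  have hz : ∀ j, (ζ ^ (2 * j)) ^ 8 = 1 := fun j => by
    rw [← pow_mul, show 2 * j * 8 = 16 * j by ring, pow_mul, hζ.pow_eq_one, one_pow]
  have hev : ∀ j, ev (V (AlgebraicClosure F) (emb f k)) (ζ ^ (2 * j)) = 0 := fun j => ev_zero_of h2K hk' (hz j)
  have e0 := h1 0 (by norm_num)
  have e2 := h1 2 (by norm_num)
  have e4 := h1 4 (by norm_num)
  have e6 := h1 6 (by norm_num)
  have e8 := h1 8 (by norm_num)
  have e1 := h1 1 (by norm_num)
  have e9 := h1 9 (by norm_num)
  rw [show 0 = 2 * 0 by norm_num, hev] at e0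
  rw [show 2 = 2 * 1 by norm_num, hev] at e2
  rw [show 4 = 2 * 2 by norm_num, hev] at e4
  rw [show 6 = 2 * 3 by norm_num, hev] at e6
  rw [show 8 = 2 * 4 by norm_num, hev] at e8
  have hfr := ev_V_frob f k (ζ ^ 1)
  rw [pow_one, pow_mod_eq hζ, hq] at hfr
  rw [pow_one] at e1
  have e19 : m 1 = m 9 := e1.symm.trans (hfr.symm.trans e9)
  unfold P16 at hP
  simp [← e0, ← e2, ← e4, ← e6, ← e8, e19] at hP

end

end Cfsg.Agent.R2.T1.N6B
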