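import Cfsg.Agent.R2.H28.SL2.FinCf
import Cfsg.Agent.R2.H28.SL2.SqTab

/-!
# Higman's criterion (helper22)

* `Hig ρ θ` : `∑ g, ρ g θ ρ g⁻¹ = 1`;
* `Hig.ext` : homomorphisms into such a module extend; `Hig.lift` : surjections onto it split;
* `Hig.hom` : `Hom(W, P)`.
-/

set_option autoImplicit false
set_option linter.unusedSectionVars false

namespace Cfsg.Agent.R2.T1.N6B

universe u v w

section Gen

variable {k : Type*} [Field k] {G : Type*} [Group G] [Fintype G]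
variable {P : Type*} [AddCommGroup P] [Module k P] {ρ : Representation k G P} {θ : P →ₗ[k] P}

/-- Higman's criterion -/
def Hig (ρ : Representation k G P) (θ : P →ₗ[k] P) : Prop := ∀ x, ∑ g, ρ g (θ (ρ g⁻¹ x)) = x

theorem rep_inv_apply {V : Type*} [AddCommGroup V] [Module k V] (σ : Representation k G V) (g : G) (x : V) :
    σ g⁻¹ (σ g x) = x := by
  rw [← Module.End.mul_apply, ← map_mul, inv_mul_cancel, map_one, Module.End.one_apply]

theorem rep_apply_inv {V : Type*} [AddCommGroup V] [Module k V] (σ : Representation k G V) (g : G) (x : V) :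
    σ g (σ g⁻¹ x) = x := by
  rw [← Module.End.mul_apply, ← map_mul, mul_inv_cancel, map_one, Module.End.one_apply]

/-- averages -/
noncomputable def avg {V W : Type*} [AddCommGroup V] [Module k V] [AddCommGroup W] [Module k W]
    (σ : Representation k G V) (τ : Representation k G W) (f : V →ₗ[k] W) : V →ₗ[k] W :=
  ∑ g, (τ g) ∘ₗ f ∘ₗ (σ g⁻¹)

theorem avg_apply {V W : Type*} [AddCommGroup V] [Module k V] [AddCommGroup W] [Module k W]
    (σ : Representation k G V) (τ : Representation k G W) (f : V →ₗ[k] W) (x : V) :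
    avg σ τ f x = ∑ g, τ g (f (σ g⁻¹ x)) := by
  unfold avg
  rw [LinearMap.sum_apply]
  rfl

theorem avg_equiv {V W : Type*} [AddCommGroup V] [Module k V] [AddCommGroup W] [Module k W]
    (σ : Representation k G V) (τ : Representation k G W) (f : V →ₗ[k] W) (g : G) (x : V) :
    avg σ τ f (σ g x) = τ g (avg σ τ f x) := by
  rw [avg_apply, avg_apply, map_sum, ← Equiv.sum_comp (Equiv.mulLeft g)]
  refine Finset.sum_congr rfl fun h _ => ?_
  rw [Equiv.coe_mulLeft, ← Module.End.mul_apply (σ (g * h)⁻¹), ← map_mul, ← Module.End.mul_apply (τ g), ← map_mul,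
    mul_inv_rev, inv_mul_cancel_right]

/-- **homomorphisms into `P` extend** -/
theorem Hig.ext (hθ : Hig ρ θ) {V : Type*} [AddCommGroup V] [Module k V] (σ : Representation k G V)
    (W : Submodule k V) (hW : ∀ g, ∀ x ∈ W, σ g x ∈ W) (f₀ : W →ₗ[k] P)
    (hf₀ : ∀ g (x : W), f₀ ⟨σ g x, hW g x x.2⟩ = ρ g (f₀ x)) :
    ∃ f : V →ₗ[k] P, (∀ g x, f (σ g x) = ρ g (f x)) ∧ ∀ x : W, f x = f₀ x := by
  obtain ⟨f₁, hf₁⟩ := f₀.exists_extend
  refine ⟨avg σ ρ (θ ∘ₗ f₁), avg_equiv _ _ _, fun x => ?_⟩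
  rw [avg_apply]
  have h1 : ∀ g, ρ g ((θ ∘ₗ f₁) (σ g⁻¹ x)) = ρ g (θ (ρ g⁻¹ (f₀ x))) := by
    intro g
    rw [← hf₀ g⁻¹ x, ← hf₁]
    rfl
  rw [Finset.sum_congr rfl fun g _ => h1 g, hθ]

/-- **surjections onto `P` split** -/
theorem Hig.lift (hθ : Hig ρ θ) {V : Type*} [AddCommGroup V] [Module k V] (σ : Representation k G V)
    (f : V →ₗ[k] P) (hf : ∀ g x, f (σ g x) = ρ g (f x)) (hs : Function.Surjective f) :
    ∃ s : P →ₗ[k] V, (∀ g x, s (ρ g x) = σ g (s x)) ∧ ∀ x, f (s x) = x := by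
  obtain ⟨s₀, hs₀⟩ := f.exists_rightInverse_of_surjective (LinearMap.range_eq_top.2 hs)
  refine ⟨avg ρ σ (s₀ ∘ₗ θ), avg_equiv _ _ _, fun x => ?_⟩
  rw [avg_apply, map_sum]
  have h1 : ∀ g, f (σ g ((s₀ ∘ₗ θ) (ρ g⁻¹ x))) = ρ g (θ (ρ g⁻¹ x)) := by
    intro g
    rw [hf]
    congr 1
    exact LinearMap.congr_fun hs₀ (θ (ρ g⁻¹ x))
  rw [Finset.sum_congr rfl fun g _ => h1 g, hθ]

/-- `Hom(W, P)` -/
theorem Hig.hom (hθ : Hig ρ θ) {W : Type*} [AddCommGroup W] [Module k W] (σ : Representation k G W) :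
    Hig (Representation.linHom σ ρ) (θ.compRight k) := by
  intro φ
  ext x
  rw [LinearMap.sum_apply, ← hθ (φ x)]
  refine Finset.sum_congr rfl fun g _ => ?_
  rw [Representation.linHom_apply, Representation.linHom_apply]
  show ρ g (θ (ρ g⁻¹ (φ (σ g⁻¹⁻¹ (σ g⁻¹ x))))) = _
  rw [rep_inv_apply]

end Gen

end Cfsg.Agent.R2.T1.N6B
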