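import Cfsg.Agent.R2.T1.N6B.Small

/-!
# Highest weight vectors of submodules `V_1`, `V_3` of modules of `SL(2, 9)` (helper22)

* `IsHw κ ρ c x` : `x` is a highest weight vector of a submodule `V_c`;
* `exists_hw`, `IsHw.map`, `IsHw.of_map`, `IsHw.plane`, `IsHw.of_plane`.
-/

set_option autoImplicit false
set_option linter.unusedSectionVars false

namespace Cfsg.Agent.R2.T1.N6B

open Matrix (SpecialLinearGroup)
open Cfsg.Agent.H943.SL2Rel Cfsg.Agent.H943.SL2Mod Cfsg.Agent.H943.RepAdd Cfsg.Agent.R2.H28.SL2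

universe u v w

variable {F : Type} [Field F] [Fintype F] [DecidableEq F]

/-- highest weight vectors of submodules `V_c`, `c < q - 1` -/
structure IsHw {k : Type*} [Field k] (κ : F →+* k) {V : Type*} [AddCommGroup V] [Module k V]
    (ρ : Representation k (SpecialLinearGroup (Fin 2) F) V) (c : ℕ) (x : V) : Prop where
  fu : ∀ t, ρ (u t) x = x
  fh : ∀ a, ρ (h a) x = κ a ^ c • x
  fs : SS ρ x = 0
  fd : ∀ i < 2, c / 3 ^ i % 3 + 1 < 3 → Dm κ ρ (en 3 c i) (ρ w x) = 0

section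
variable {k : Type*} [Field k] {κ : F →+* k} {V : Type*} [AddCommGroup V] [Module k V]
  {ρ : Representation k (SpecialLinearGroup (Fin 2) F) V} {c : ℕ}

theorem IsHw.add {x y : V} (hx : IsHw κ ρ c x) (hy : IsHw κ ρ c y) : IsHw κ ρ c (x + y) where
  fu t := by rw [map_add, hx.fu, hy.fu]
  fh a := by rw [map_add, hx.fh, hy.fh, smul_add]
  fs := by rw [map_add, hx.fs, hy.fs, add_zero]
  fd i hi h := by rw [map_add, map_add, hx.fd i hi h, hy.fd i hi h, add_zero]

theorem IsHw.smul {x : V} (hx : IsHw κ ρ c x) (b : k) : IsHw κ ρ c (b • x) where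
  fu t := by rw [map_smul, hx.fu]
  fh a := by rw [map_smul, hx.fh, smul_comm]
  fs := by rw [map_smul, hx.fs, smul_zero]
  fd i hi h := by rw [map_smul, map_smul, hx.fd i hi h, smul_zero]

variable {k' : Type*} [Field k'] {κ' : F →+* k'} {V' : Type*} [AddCommGroup V'] [Module k' V']
  {ρ' : Representation k' (SpecialLinearGroup (Fin 2) F) V'}

theorem map_SS (T : V →+ V') (hT : ∀ g x, T (ρ g x) = ρ' g (T x)) (x : V) : T (SS ρ x) = SS ρ' (T x) := by
  rw [SS_apply, SS_apply, map_sum]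
  exact Finset.sum_congr rfl fun t _ => by rw [hT, hT]

theorem map_Dm (T : V →+ V') (hT : ∀ g x, T (ρ g x) = ρ' g (T x)) (hs : ∀ (a : F) x, T (κ a • x) = κ' a • T x)
    (n : ℕ) (x : V) : T (Dm κ ρ n x) = Dm κ' ρ' n (T x) := by
  rw [Dm_apply, Dm_apply, map_neg, map_sum]
  congr 1
  refine Finset.sum_congr rfl fun t _ => ?_
  rw [← map_pow, ← map_pow, hs, hT]

/-- transport -/
theorem IsHw.map (T : V →+ V') (hT : ∀ g x, T (ρ g x) = ρ' g (T x)) (hs : ∀ (a : F) x, T (κ a • x) = κ' a • T x)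
    {x : V} (hx : IsHw κ ρ c x) : IsHw κ' ρ' c (T x) where
  fu t := by rw [← hT, hx.fu]
  fh a := by rw [← hT, hx.fh, ← map_pow, hs, map_pow]
  fs := by rw [← map_SS T hT, hx.fs, map_zero]
  fd i hi h := by rw [← hT, ← map_Dm T hT hs, hx.fd i hi h, map_zero]

/-- transport back -/
theorem IsHw.of_map (T : V →+ V') (hT : ∀ g x, T (ρ g x) = ρ' g (T x)) (hs : ∀ (a : F) x, T (κ a • x) = κ' a • T x)
    (hi : Function.Injective T) {x : V} (hx : IsHw κ' ρ' c (T x)) : IsHw κ ρ c x where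
  fu t := by
    apply hi
    rw [hT, hx.fu]
  fh a := by
    apply hi
    rw [hT, hx.fh, ← map_pow, ← map_pow, hs]
  fs := by
    apply hi
    rw [map_SS T hT, hx.fs, map_zero]
  fd i hi' h := by
    apply hi
    rw [map_Dm T hT hs, hT, hx.fd i hi' h, map_zero]

end

section
variable {k : Type u} [Field k] [DecidableEq k] (ι : F →+* k) [CharP k 3] [CharP F 3]

/-- highest weight vectors exist -/
theorem exists_hw (hF : Fintype.card F = 3 ^ 2) {V : Type*} [AddCommGroup V] [Module k V]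
    {ρ : Representation k (SpecialLinearGroup (Fin 2) F) V} {c : ℕ} (hc : c = 1 ∨ c = 3) (hV : IsV ι 3 ρ c) :
    ∃ x : V, x ≠ 0 ∧ IsHw ι ρ c x := by
  have h9 : Fintype.card F = 9 := by rw [hF]; norm_num
  obtain ⟨m, hm0, hmu, hmh, hms, hmd, -⟩ := hV.hw2
  refine ⟨m, hm0, hmu, hmh, ?_, fun i hi hd => ?_⟩
  · rw [hms]
    unfold cb
    rw [if_pos (by omega), zero_smul]
  · apply hmd
    · rcases hc with rfl | rfl <;> interval_cases i <;> decide
    · rw [h9]
      rcases hc with rfl | rfl <;> interval_cases i <;> decide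
    · rcases hc with rfl | rfl <;> interval_cases i <;> decide

theorem exists_hw_soc (hF : Fintype.card F = 3 ^ 2) {V : Type*} [AddCommGroup V] [Module k V]
    {ρ : Representation k (SpecialLinearGroup (Fin 2) F) V} {c : ℕ} (hc : c = 1 ∨ c = 3) (hV : InSoc ι 3 ρ c) :
    ∃ x : V, x ≠ 0 ∧ IsHw ι ρ c x := by
  obtain ⟨X, hX, hXc⟩ := hV
  obtain ⟨x, hx0, hx⟩ := exists_hw ι hF hc hXc
  exact ⟨x, fun h0 => hx0 (Subtype.ext h0), hx.map X.subtype.toAddMonoidHom (fun _ _ => rfl) fun _ _ => rfl⟩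

/-- the plane generated by a highest weight vector -/
theorem IsHw.plane (hF : Fintype.card F = 3 ^ 2) {V : Type*} [AddCommGroup V] [Module k V]
    {ρ : Representation k (SpecialLinearGroup (Fin 2) F) V} {c : ℕ} (hc : c = 1 ∨ c = 3) {x : V} (hx : IsHw ι ρ c x)
    (hx0 : x ≠ 0) : ∃ W : Submodule k V, (∀ g, ∀ y ∈ W, ρ g y ∈ W) ∧ x ∈ W ∧ Module.finrank k W = 2 ∧
      ∀ W' : Submodule k V, (∀ g, ∀ y ∈ W', ρ g y ∈ W') → x ∈ W' → W ≤ W' := by
  have h9 : Fintype.card F = 9 := by rw [hF]; norm_num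
  have hcq : c ≤ Fintype.card F - 1 := by omega
  have hV : IsV ι 3 (RB ι 3 hcq) c := ⟨hcq, LinearEquiv.refl k _, fun _ _ => rfl⟩
  obtain ⟨m, hm0, hmu, -, -, -, hfr, -⟩ := hV.hw2
  obtain ⟨f, hf, hfm⟩ := gen_hw ι 3 ρ hF hV hm0 hmu hx.fu hx.fh (by
    rw [hx.fs]
    unfold cb
    rw [if_pos (by omega), zero_smul]) hx.fd
  have hinj : LinearMap.ker f = ⊥ := by
    rcases hV.irr.2 (LinearMap.ker f) (fun g y hy => by
      rw [LinearMap.mem_ker] at hy ⊢
      rw [hf, hy, map_zero]) with h1 | h1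
    · exact h1
    · exfalso
      apply hx0
      have h2 : m ∈ LinearMap.ker f := by rw [h1]; trivial
      rw [← hfm]
      exact h2
  have c0 : (Bf k 0).card = 1 := card_Bf_zero
  have c1 : (Bf k 1).card = 2 := by rw [card_Bf_low k 3]; simp [c0]
  have c3 : (Bf k 3).card = 2 := by rw [card_Bf_low k 3]; simp [c1]
  refine ⟨LinearMap.range f, ?_, ⟨m, hfm⟩, ?_, fun W' hW' hxW => ?_⟩
  · rintro g _ ⟨y, rfl⟩
    exact ⟨_, hf g y⟩
  · rw [LinearMap.finrank_range_of_inj (LinearMap.ker_eq_bot.1 hinj), hfr]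
    rcases hc with rfl | rfl
    · exact c1
    · exact c3
  · rcases hV.irr.2 (W'.comap f) (fun g y hy => by
      show f (RB ι 3 hcq g y) ∈ W'
      rw [hf]
      exact hW' g _ hy) with h1 | h1
    · exfalso
      have h2 : m ∈ W'.comap f := by
        show f m ∈ W'
        rw [hfm]
        exact hxW
      rw [h1, Submodule.mem_bot] at h2
      exact hm0 h2
    · rintro _ ⟨y, rfl⟩
      have h2 : y ∈ W'.comap f := by rw [h1]; trivial
      exact h2

end

section
variable {k : Type u} [Field k] [DecidableEq k] (ι : F →+* k) [CharP k 3] [CharP F 3] [IsAlgClosed k]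

/-- a vector of the correct weight in an invariant plane -/
theorem IsHw.of_plane (hF : Fintype.card F = 3 ^ 2) {V : Type u} [AddCommGroup V] [Module k V] [FiniteDimensional k V]
    {ρ : Representation k (SpecialLinearGroup (Fin 2) F) V} {c : ℕ} (hc : c = 1 ∨ c = 3)
    (hm : ∀ x, ρ (h (-1)) x = -x) {W : Submodule k V} (hW : ∀ g, ∀ y ∈ W, ρ g y ∈ W) (h2 : Module.finrank k W = 2)
    {a₀ : Fˣ} (ha : ∀ a : Fˣ, a ∈ Subgroup.zpowers a₀) {x y : V} (hxW : x ∈ W) (hyW : y ∈ W) (hx0 : x ≠ 0) (hy0 : y ≠ 0)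
    (hx : ρ (h a₀) x = ι a₀ ^ c • x) (hy : ρ (h a₀) y = (ι a₀ ^ c)⁻¹ • y) : IsHw ι ρ c x := by
  have h9 : Fintype.card F = 9 := by rw [hF]; norm_num
  have hprim : IsPrimitiveRoot (ι (a₀ : F)) 8 := by
    have h1 := primitive ι ι.injective ha
    rwa [h9] at h1
  have c0 : (Bf k 0).card = 1 := card_Bf_zero
  have c1 : (Bf k 1).card = 2 := by rw [card_Bf_low k 3]; simp [c0]
  have c2 : (Bf k 2).card = 3 := by rw [card_Bf_low k 3]; simp [c0]
  have c3 : (Bf k 3).card = 2 := by rw [card_Bf_low k 3]; simp [c1]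
  have c5 : (Bf k 5).card = 6 := by rw [card_Bf_low k 3]; simp [c1]
  have c7 : (Bf k 7).card = 6 := by rw [card_Bf_low k 3]; simp [c2]
  -- the composition factors of `W`
  obtain ⟨b, hb, hWb⟩ : ∃ b, (b = 1 ∨ b = 3) ∧ IsV ι 3 (subRep ρ W hW) b := by
    have h3 := finrank_cf ι 3 _ W (subRep ρ W hW) le_rfl
    have h4 : ∀ b ∈ cf (Sy.{u, u, 0} ι 3) (subRep ρ W hW), b = 1 ∨ b = 3 ∨ b = 5 ∨ b = 7 := by
      intro b hb
      obtain ⟨r, hr⟩ := odd_cf ι (ρ := subRep ρ W hW) (fun x => Subtype.ext (hm x)) b hb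
      have := cf_lt ι 3 hF (subRep ρ W hW) b hb
      omega
    rw [h2] at h3
    rcases Multiset.empty_or_exists_mem (cf (Sy.{u, u, 0} ι 3) (subRep ρ W hW)) with h5 | ⟨b, hb⟩
    · rw [h5] at h3
      simp at h3
    · obtain ⟨s, hs⟩ := Multiset.exists_cons_of_mem hb
      rw [hs, Multiset.map_cons, Multiset.sum_cons] at h3
      have h6 : s = 0 := by
        by_contra hne
        obtain ⟨d, hd⟩ := Multiset.exists_mem_of_ne_zero hne
        obtain ⟨s', hs'⟩ := Multiset.exists_cons_of_mem hd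
        rw [hs', Multiset.map_cons, Multiset.sum_cons] at h3
        have h7 : 2 ≤ (Bf k b).card := by
          rcases h4 b hb with h | h | h | h <;> rw [h] <;> omega
        have h8 : 2 ≤ (Bf k d).card := by
          rcases h4 d (by rw [hs]; exact Multiset.mem_cons_of_mem hd) with h | h | h | h <;> rw [h] <;> omega
        omega
      rw [h6, Multiset.map_zero, Multiset.sum_zero] at h3
      have h7 : IsV ι 3 (subRep ρ W hW) b := irr_of_cf (Sy.{u, u, 0} ι 3) (by rw [hs, h6]; rfl)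
      refine ⟨b, ?_, h7⟩
      rcases h4 b hb with h | h | h | h
      · exact Or.inl h
      · exact Or.inr h
      · rw [h, c5] at h3; omega
      · rw [h, c7] at h3; omega
  -- its highest weight vector
  obtain ⟨m, hm0, hmw⟩ := exists_hw ι hF hb hWb
  have hmV : IsHw ι ρ b (m : V) := hmw.map W.subtype.toAddMonoidHom (fun _ _ => rfl) fun _ _ => rfl
  have hmV0 : (m : V) ≠ 0 := fun h0 => hm0 (Subtype.ext h0)
  have hζ0 : ι (a₀ : F) ≠ 0 := hprim.ne_zero (by norm_num)
  have hne : ι (a₀ : F) ^ c ≠ (ι (a₀ : F) ^ c)⁻¹ := by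
    intro h3
    have h4 : ι (a₀ : F) ^ (2 * c) = 1 := by
      rw [two_mul, pow_add]
      nth_rewrite 1 [h3]
      exact inv_mul_cancel₀ (pow_ne_zero _ hζ0)
    have h5 := (hprim.pow_eq_one_iff_dvd _).1 h4
    rcases hc with rfl | rfl <;> omega
  -- `x`, `y` are a basis of `W`
  have hli : LinearIndependent k ![(⟨x, hxW⟩ : W), ⟨y, hyW⟩] := by
    rw [LinearIndependent.pair_iff]
    intro s t hst
    have e1 : s • x + t • y = 0 := congrArg Subtype.val hst
    have e2 := congrArg (ρ (h a₀)) e1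
    rw [map_add, map_smul, map_smul, hx, hy, map_zero] at e2
    have e3 : (t * (ι (a₀ : F) ^ c - (ι (a₀ : F) ^ c)⁻¹)) • y = 0 := by
      have e4 : ι (a₀ : F) ^ c • (s • x + t • y) - (s • ι (a₀ : F) ^ c • x + t • (ι (a₀ : F) ^ c)⁻¹ • y) = 0 := by
        rw [e1, e2, smul_zero, sub_zero]
      rw [← e4, smul_add, smul_smul, smul_smul, smul_smul, smul_smul, mul_sub, sub_smul]
      rw [mul_comm (ι (a₀ : F) ^ c) s, mul_comm (ι (a₀ : F) ^ c) t]
      abel
    have ht : t = 0 := by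
      rcases smul_eq_zero.1 e3 with h | h
      · exact (mul_eq_zero.1 h).resolve_right (sub_ne_zero.2 hne)
      · exact absurd h hy0
    rw [ht, zero_smul, add_zero] at e1
    exact ⟨(smul_eq_zero.1 e1).resolve_right hx0, ht⟩
  have hspan : ∃ s t : k, (m : V) = s • x + t • y := by
    have h3 : Submodule.span k (Set.range ![(⟨x, hxW⟩ : W), ⟨y, hyW⟩]) = ⊤ :=
      hli.span_eq_top_of_card_eq_finrank (by rw [h2]; rfl)
    have h4 : m ∈ Submodule.span k (Set.range ![(⟨x, hxW⟩ : W), ⟨y, hyW⟩]) := by rw [h3]; trivial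
    rw [Matrix.range_cons, Matrix.range_cons, Matrix.range_empty, Set.union_empty, Set.singleton_union,
      Submodule.mem_span_pair] at h4
    obtain ⟨s, t, h5⟩ := h4
    exact ⟨s, t, (congrArg Subtype.val h5).symm⟩
  obtain ⟨s, t, hst⟩ := hspan
  have hma := hmV.fh a₀
  rw [hst, map_add, map_smul, map_smul, hx, hy] at hma
  -- compare coefficients
  have hco := (LinearIndependent.pair_iff.1 hli) (s * (ι (a₀ : F) ^ c - ι (a₀ : F) ^ b))
    (t * ((ι (a₀ : F) ^ c)⁻¹ - ι (a₀ : F) ^ b)) (Subtype.ext (by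
      show (s * (ι (a₀ : F) ^ c - ι (a₀ : F) ^ b)) • x + (t * ((ι (a₀ : F) ^ c)⁻¹ - ι (a₀ : F) ^ b)) • y = 0
      rw [← sub_eq_zero] at hma
      rw [← hma]
      module))
  obtain ⟨f1, f2⟩ := hco
  have hbc : b = c := by
    by_contra hbc
    have g1 : ι (a₀ : F) ^ c - ι (a₀ : F) ^ b ≠ 0 := by
      rw [sub_ne_zero]
      intro h3
      have h4 := hprim.pow_inj (by omega) (by omega) h3
      exact hbc h4.symm
    have g2 : (ι (a₀ : F) ^ c)⁻¹ - ι (a₀ : F) ^ b ≠ 0 := by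
      rw [sub_ne_zero]
      intro h3
      have h4 : ι (a₀ : F) ^ (b + c) = 1 := by
        rw [pow_add, ← h3]
        exact inv_mul_cancel₀ (pow_ne_zero _ hζ0)
      have h5 := (hprim.pow_eq_one_iff_dvd _).1 h4
      rcases hc with rfl | rfl <;> rcases hb with rfl | rfl <;> omega
    have hs0 := (mul_eq_zero.1 f1).resolve_right g1
    have ht0 := (mul_eq_zero.1 f2).resolve_right g2
    rw [hs0, ht0, zero_smul, zero_smul, add_zero] at hst
    exact hmV0 hst
  subst hbc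
  have ht0 : t = 0 := by
    rcases mul_eq_zero.1 f2 with h3 | h3
    · exact h3
    · exact absurd (sub_eq_zero.1 h3).symm hne
  rw [ht0, zero_smul, add_zero] at hst
  have hs0 : s ≠ 0 := by
    rintro rfl
    rw [zero_smul] at hst
    exact hmV0 hst
  have h3 : x = s⁻¹ • (m : V) := by rw [hst, inv_smul_smul₀ hs0]
  rw [h3]
  exact hmV.smul s⁻¹

end

end Cfsg.Agent.R2.T1.N6B
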