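import Cfsg.Agent.R2.T1.N6B.St

/-!
# The faithful modules of `SL(2, 9)` in characteristic three (helper22)

`exists_small` : a self-dual module on which `-1` acts as `-1`, and whose dimension is not divisible by `6`, contains
`V_1` or `V_3`.
-/

set_option autoImplicit false
set_option linter.unusedSectionVars false

namespace Cfsg.Agent.R2.T1.N6B

open Matrix (SpecialLinearGroup)
open Cfsg.Agent.H943.SL2Rel Cfsg.Agent.H943.SL2Mod Cfsg.Agent.H943.RepAdd Cfsg.Agent.R2.H28.SL2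
open scoped TensorProduct

universe u v w

section Char

variable (k : Type*) [Field k] [DecidableEq k] [CharP k 3]

theorem chs {z : ℂ} (hz : Zs (3 ^ 2) z) : ∃ a b : ℂ, chB k 1 z = a ∧ chB k 3 z = b ∧ chB k 0 z = 1 ∧
    chB k 2 z = a ^ 2 - 1 ∧ chB k 4 z = a * b ∧ chB k 5 z = (a ^ 2 - 1) * b ∧ chB k 6 z = b ^ 2 - 1 ∧
    chB k 7 z = a * (b ^ 2 - 1) ∧ chB k 8 z = (a ^ 2 - 1) * (b ^ 2 - 1) ∧ b = a ^ 3 - 3 * a ∧ a = b ^ 3 - 3 * b := by
  have hz0 : z ≠ 0 := hz.ne_zero (by norm_num)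
  have hz3 : z ^ 3 ≠ 0 := pow_ne_zero 3 hz0
  have e1 : ∀ y : ℂ, chi 1 y = y + y⁻¹ := chi_one
  have e2 : ∀ y : ℂ, y ≠ 0 → chi 2 y = (y + y⁻¹) ^ 2 - 1 := fun y hy => by rw [chi_two' hy, sq]
  have f1 := chB_small k 3 (n := 1) (by norm_num) z
  have f2 := chB_small k 3 (n := 2) (by norm_num) z
  have f3 := chB_single k 3 (n := 1) (by norm_num) 1 z
  have f6 := chB_single k 3 (n := 2) (by norm_num) 1 z
  have f4 := chB_pair k 3 (n := 1) (m := 1) (by norm_num) (by norm_num) (i := 0) (j := 1) (by norm_num) z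
  have f5 := chB_pair k 3 (n := 2) (m := 1) (by norm_num) (by norm_num) (i := 0) (j := 1) (by norm_num) z
  have f7 := chB_pair k 3 (n := 1) (m := 2) (by norm_num) (by norm_num) (i := 0) (j := 1) (by norm_num) z
  have f8 := chB_pair k 3 (n := 2) (m := 2) (by norm_num) (by norm_num) (i := 0) (j := 1) (by norm_num) z
  norm_num at f1 f2 f3 f4 f5 f6 f7 f8
  rw [e1] at f1 f3 f4 f5 f7
  rw [e1] at f4
  rw [e2 _ hz0] at f2 f5 f8
  rw [e2 _ hz3] at f6 f7 f8
  refine ⟨z + z⁻¹, z ^ 3 + (z ^ 3)⁻¹, f1, f3, chB_zero k z, f2, f4, f5, f6, f7, f8, ?_, ?_⟩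
  · field_simp
    ring
  · have h9 : z ^ 9 + (z ^ 9)⁻¹ = z + z⁻¹ := by
      rcases hz.frob (by norm_num) with h | h
      · norm_num at h
        rw [h]
      · norm_num at h
        rw [h, inv_inv, add_comm]
    rw [← h9]
    field_simp
    ring

end Char

variable {k : Type u} [Field k] [DecidableEq k] {F : Type} [Field F] [Fintype F] [DecidableEq F] (ι : F →+* k)
variable [CharP k 3] [CharP F 3] [IsAlgClosed k]

/-- parity -/
theorem IsV.odd {V : Type*} [AddCommGroup V] [Module k V] {ρ : Representation k (SpecialLinearGroup (Fin 2) F) V} {b : ℕ}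
    (hV : IsV ι 3 ρ b) (hm : ∀ x, ρ (h (-1)) x = -x) : Odd b := by
  obtain ⟨m, hm0, -, hmh, -⟩ := hV.hw
  have h1 := hmh (-1)
  rw [hm] at h1
  rw [Units.val_neg, Units.val_one, map_neg, map_one] at h1
  rcases Nat.even_or_odd b with he | ho
  · rw [he.neg_one_pow, one_smul, neg_eq_iff_add_eq_zero, ← two_smul k, smul_eq_zero, or_iff_left hm0] at h1
    have h2 : ((2 : ℕ) : k) = 0 := by exact_mod_cast h1
    rw [CharP.cast_eq_zero_iff k 3] at h2
    omega
  · exact ho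

theorem odd_of_JHn (n : ℕ) : ∀ {V : Type u} [AddCommGroup V] [Module k V]
    {ρ : Representation k (SpecialLinearGroup (Fin 2) F) V} {s : Multiset ℕ}, JHn (Sy.{u, u, 0} ι 3) n ρ s →
    (∀ x, ρ (h (-1)) x = -x) → ∀ b ∈ s, Odd b := by
  induction n with
  | zero =>
    intro V _ _ ρ s hs _ b hb
    rw [hs.2] at hb
    exact absurd hb (Multiset.notMem_zero b)
  | succ n ih =>
    intro V _ _ ρ s hs hm b hb
    obtain ⟨W, hW, c, t, hc, rfl, ht⟩ := hs
    rcases Multiset.mem_cons.1 hb with rfl | h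
    · exact IsV.odd ι hc fun x => Subtype.ext (hm x)
    · refine ih ht (fun x => ?_) b h
      obtain ⟨y, rfl⟩ := W.mkQ_surjective x
      rw [quotRep_mk, hm, map_neg]

theorem odd_cf {V : Type u} [AddCommGroup V] [Module k V] [FiniteDimensional k V]
    {ρ : Representation k (SpecialLinearGroup (Fin 2) F) V} (hm : ∀ x, ρ (h (-1)) x = -x) :
    ∀ b ∈ cf (Sy.{u, u, 0} ι 3) ρ, Odd b := by
  obtain ⟨n, hn⟩ := cf_spec (Sy.{u, u, 0} ι 3) ρ
  exact odd_of_JHn ι n hn hm

/-- irreducible quotients exist -/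
theorem exists_quot {V : Type u} [AddCommGroup V] [Module k V] [FiniteDimensional k V] [Nontrivial V]
    (ρ : Representation k (SpecialLinearGroup (Fin 2) F) V) :
    ∃ (c : ℕ) (B : Type u) (_ : AddCommGroup B) (_ : Module k B) (σ : Representation k (SpecialLinearGroup (Fin 2) F) B)
      (f : V →ₗ[k] B), IsV ι 3 σ c ∧ (∀ g x, f (ρ g x) = σ g (f x)) ∧ Function.Surjective f := by
  obtain ⟨ρ', β, D⟩ := exists_dul ρ
  obtain ⟨c, X, hX, hc⟩ := exists_inSoc ι 3 ρ'
  obtain ⟨B', D', -⟩ := D.flip.sub hX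
  exact ⟨c, _, _, _, _, (orth β.flip X).mkQ, IsV.dual ι 3 hc D', fun g x => rfl, Submodule.mkQ_surjective _⟩

/-- no quotient `V_c` -/
def NoQ {V : Type u} [AddCommGroup V] [Module k V] (ρ : Representation k (SpecialLinearGroup (Fin 2) F) V) (c : ℕ) : Prop :=
  ∀ (B : Type u) [AddCommGroup B] [Module k B] (σ : Representation k (SpecialLinearGroup (Fin 2) F) B), IsV ι 3 σ c →
    ∀ f : V →ₗ[k] B, (∀ g x, f (ρ g x) = σ g (f x)) → f = 0

variable (k F) in
/-- the covers of `V_5`, `V_7` -/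
structure Cov (b : ℕ) (s : Multiset ℕ) {P : Type u} [AddCommGroup P] [Module k P]
    (π : Representation k (SpecialLinearGroup (Fin 2) F) P) (ι : F →+* k) : Prop where
  hig : ∀ [Fintype (SpecialLinearGroup (Fin 2) F)], ∃ θ : P →ₗ[k] P, Hig π θ
  cf : cf (Sy.{u, u, 0} ι 3) π = s
  neg : ∀ x, π (h (-1)) x = -x
  sub : ∀ c, InSoc ι 3 π c → c = b
  quot : ∀ c, c ≠ b → NoQ ι π c

theorem isV_RB {b : ℕ} (hb : b ≤ Fintype.card F - 1) : IsV ι 3 (RB ι 3 hb) b :=
  ⟨hb, LinearEquiv.refl k _, fun _ _ => rfl⟩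

theorem finite_Vb (b : ℕ) (hb : b ≤ Fintype.card F - 1) : FiniteDimensional k (Vb ι b) := (isV_RB ι hb).finite

/-- the action of `-1` on `V_b` -/
theorem IsV.neg_one {V : Type*} [AddCommGroup V] [Module k V] {ρ : Representation k (SpecialLinearGroup (Fin 2) F) V}
    {b : ℕ} (hV : IsV ι 3 ρ b) (x : V) : ρ (h (-1)) x = (-1 : k) ^ b • x := by
  obtain ⟨m, hm0, -, hmh, -⟩ := hV.hw
  have hcen : ∀ g : SpecialLinearGroup (Fin 2) F, g * h (-1) = h (-1) * g := by
    intro g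
    have h1 : (h (-1) : SpecialLinearGroup (Fin 2) F) = -1 := by
      apply Subtype.ext
      show !![((-1 : Fˣ) : F), 0; 0, ((-1 : Fˣ) : F)⁻¹] = -1
      rw [Matrix.one_fin_two]
      ext i j
      fin_cases i <;> fin_cases j <;> simp [inv_neg]
    rw [h1, mul_neg, neg_mul, mul_one, one_mul]
  let N : Submodule k V := LinearMap.ker (ρ (h (-1)) - (-1 : k) ^ b • LinearMap.id)
  have hN : ∀ x, x ∈ N ↔ ρ (h (-1)) x = (-1 : k) ^ b • x := by
    intro x
    rw [LinearMap.mem_ker, LinearMap.sub_apply, sub_eq_zero]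
    rfl
  have hNi : ∀ g, ∀ x ∈ N, ρ g x ∈ N := by
    intro g x hx
    rw [hN] at hx ⊢
    rw [← Module.End.mul_apply, ← map_mul, ← hcen, map_mul, Module.End.mul_apply, hx, map_smul]
  rcases hV.irr.2 N hNi with h1 | h1
  · have h2 : m ∈ N := by
      rw [hN, hmh, Units.val_neg, Units.val_one, map_neg, map_one]
    rw [h1, Submodule.mem_bot] at h2
    exact absurd h2 hm0
  · have h2 : x ∈ N := by rw [h1]; trivial
    exact (hN x).1 h2

/-- `V_8` in a tensor product -/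
theorem mem_tens {A B P : Type u} [AddCommGroup A] [Module k A] [AddCommGroup B] [Module k B] [AddCommGroup P] [Module k P]
    [FiniteDimensional k A] [FiniteDimensional k B] {α : Representation k (SpecialLinearGroup (Fin 2) F) A}
    {β : Representation k (SpecialLinearGroup (Fin 2) F) B} {π : Representation k (SpecialLinearGroup (Fin 2) F) P} {e : ℕ}
    (hP : IsV ι 3 π e) (f : A →ₗ[k] B →ₗ[k] P) (hf : ∀ g x y, f (α g x) (β g y) = π g (f x y)) (hf0 : f ≠ 0) :
    e ∈ cf (Sy.{u, u, 0} ι 3) (α.tprod β) := by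
  have hfin := hP.finite
  let F' : A ⊗[k] B →ₗ[k] P := TensorProduct.lift f
  have hF' : ∀ g x, F' ((α.tprod β) g x) = π g (F' x) := by
    intro g x
    have h1 : F' ∘ₗ ((α.tprod β) g) = π g ∘ₗ F' := by
      refine TensorProduct.ext' fun x y => ?_
      rw [LinearMap.comp_apply, LinearMap.comp_apply, Representation.tprod_apply, TensorProduct.map_tmul]
      show TensorProduct.lift f (α g x ⊗ₜ[k] β g y) = π g (TensorProduct.lift f (x ⊗ₜ[k] y))
      rw [TensorProduct.lift.tmul, TensorProduct.lift.tmul, hf]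
    exact LinearMap.congr_fun h1 x
  have hr : LinearMap.range F' = ⊤ := by
    rcases hP.irr.2 (LinearMap.range F') (by
      rintro g _ ⟨x, rfl⟩
      exact ⟨_, hF' g x⟩) with h1 | h1
    · exfalso
      apply hf0
      refine LinearMap.ext fun x => LinearMap.ext fun y => ?_
      have h2 : F' (x ⊗ₜ[k] y) ∈ LinearMap.range F' := ⟨_, rfl⟩
      rw [h1, Submodule.mem_bot] at h2
      exact h2
    · exact h1
  obtain ⟨hk, hr', hcf, -⟩ := cf_exact (Sy.{u, u, 0} ι 3) (α.tprod β) π F' hF'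
  rw [hcf, Multiset.mem_add]
  right
  have h3 : Eqv (subRep π _ hr') π := by
    refine ⟨(LinearEquiv.ofTop (LinearMap.range F') hr), fun g x => rfl⟩
  rw [cf_iso (Sy.{u, u, 0} ι 3) h3, cf_irr (Sy.{u, u, 0} ι 3) hP]
  exact Multiset.mem_singleton_self e

end Cfsg.Agent.R2.T1.N6B
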